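import Cfsg.Agent.S0028

/-!
# Constrained centralizers of 2-elements (helper890)

`E` is a `p`-subgroup, normalized by `C(z)`, with `C(E) ≤ E`. If `z` is a power of the `p`-element `x`, then `C(x)` has a
normal `p`-subgroup containing its centralizer.
-/

set_option autoImplicit false

namespace Cfsg.Agent.H890.EB

open Subgroup

universe u

/-- a group all of whose elements of order prime to `p` are trivial is a `p`-group -/
theorem isPGroup_of_reg {G : Type u} [Group G] [Finite G] {p : ℕ} [Fact p.Prime]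
    (h : ∀ g : G, (orderOf g).Coprime p → g = 1) : IsPGroup p G := by
  have hp : p.Prime := Fact.out
  intro g
  obtain ⟨k, m, hm, hg⟩ := Nat.exists_eq_pow_mul_and_not_dvd (orderOf_pos g).ne' p hp.ne_one
  refine ⟨k, h _ ?_⟩
  have h1 : orderOf (g ^ p ^ k) = m := by
    rw [orderOf_pow' g (pow_ne_zero k hp.ne_zero), hg, Nat.gcd_eq_right (dvd_mul_right _ _),
      Nat.mul_div_cancel_left _ (pow_pos hp.pos k)]
  rw [h1]
  exact (Nat.coprime_comm.1 ((Nat.Prime.coprime_iff_not_dvd hp).2 hm))

theorem exists_constr {G : Type u} [Group G] [Finite G] {p : ℕ} [Fact p.Prime] {z x : G} {E : Subgroup G}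
    (hE : IsPGroup p E) (hEz : ∀ c : G, c * z = z * c → ∀ q ∈ E, c * q * c⁻¹ ∈ E)
    (hcent : ∀ c : G, (∀ q ∈ E, c * q = q * c) → c ∈ E) (hx : ∃ j : ℕ, orderOf x = p ^ j) (hz : z ∈ zpowers x) :
    ∃ D : Subgroup (centralizer ({x} : Set G)), D.Normal ∧ IsPGroup p D ∧
      centralizer (D : Set (centralizer ({x} : Set G))) ≤ D := by
  have hp : p.Prime := Fact.out
  have hcz : ∀ c : G, c * x = x * c → c * z = z * c := by
    intro c hc
    obtain ⟨n, rfl⟩ := mem_zpowers_iff.1 hz
    exact (show Commute c x from hc).zpow_right n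
  have hN : ∀ c : G, c * z = z * c → c ∈ normalizer (E : Set G) := by
    intro c hc
    rw [mem_normalizer_iff]
    intro q
    constructor
    · exact hEz c hc q
    · intro h
      have h1 := hEz c⁻¹ (by rw [inv_mul_eq_iff_eq_mul, ← mul_assoc, hc, mul_assoc, mul_inv_cancel, mul_one]) _ h
      rwa [inv_inv, show c⁻¹ * (c * q * c⁻¹) * c = q by group] at h1
  set X := centralizer ({x} : Set G) with hX
  let E1 : Subgroup X := E.subgroupOf X
  have hE1n : E1.Normal := by
    refine ⟨fun q hq g => ?_⟩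
    rw [mem_subgroupOf] at hq ⊢
    exact hEz g (hcz g (mem_centralizer_singleton_iff.1 g.2)) q hq
  have hE1 : IsPGroup p E1 := hE.comap_of_injective _ (Subtype.val_injective)
  let C1 : Subgroup X := centralizer (E1 : Set X)
  have hC1n : C1.Normal := inferInstance
  have hC1 : IsPGroup p C1 := by
    refine isPGroup_of_reg fun d hd => ?_
    have hdx : ((d : X) : G) * x = x * (d : X) := mem_centralizer_singleton_iff.1 (d : X).2
    have hod : (orderOf ((d : X) : G)).Coprime p := by rwa [orderOf_coe, orderOf_coe]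
    have hQc : (Nat.card (zpowers ((d : X) : G))).Coprime p := by rwa [Nat.card_zpowers]
    have h1 : zpowers ((d : X) : G) ≤ centralizer (E : Set G) := by
      refine S0028.result p (zpowers x) (zpowers ((d : X) : G)) E ?_ hQc hE ?_ ?_ ?_ ?_
      · obtain ⟨j, hj⟩ := hx
        exact IsPGroup.of_card (n := j) (by rw [Nat.card_zpowers, hj])
      · rw [zpowers_le]
        rw [mem_centralizer_iff]
        intro q hq
        obtain ⟨n, rfl⟩ := mem_zpowers_iff.1 hq
        exact ((show Commute ((d : X) : G) x from hdx).zpow_left n)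
      · rw [zpowers_le]
        exact hN x (hcz x rfl)
      · rw [zpowers_le]
        exact hN _ (hcz _ hdx)
      · rintro q ⟨hq, hqx⟩
        rw [mem_centralizer_iff]
        have hqX : q ∈ X := by
          rw [hX, mem_centralizer_singleton_iff]
          exact (mem_centralizer_iff.1 hqx x (mem_zpowers x)).symm
        intro y hy
        obtain ⟨n, rfl⟩ := mem_zpowers_iff.1 hy
        have h2 : (⟨q, hqX⟩ : X) * (d : X) = d * ⟨q, hqX⟩ :=
          mem_centralizer_iff.1 d.2 _ (show (⟨q, hqX⟩ : X) ∈ E1 from hq)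
        have h3 : Commute ((d : X) : G) q := (congrArg Subtype.val h2).symm
        exact h3.zpow_left n
    have h2 : ((d : X) : G) ∈ E := by
      refine hcent _ fun q hq => ?_
      exact (mem_centralizer_iff.1 (h1 (mem_zpowers _)) q hq).symm
    obtain ⟨k, hk⟩ := hE ⟨_, h2⟩
    have h3 : ((d : X) : G) ^ p ^ k = 1 := congrArg Subtype.val hk
    have h4 : orderOf ((d : X) : G) = 1 :=
      Nat.eq_one_of_dvd_coprimes (hod.pow_right k) dvd_rfl (orderOf_dvd_of_pow_eq_one h3)
    exact Subtype.ext (Subtype.ext (orderOf_eq_one_iff.1 h4))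
  refine ⟨E1 ⊔ C1, inferInstance, IsPGroup.to_sup_of_normal_left hE1 hC1, ?_⟩
  refine le_trans ?_ (le_sup_right : C1 ≤ E1 ⊔ C1)
  exact centralizer_le (le_sup_left : E1 ≤ E1 ⊔ C1)

/-- the data of the criterion (N8), in a form which is easily transported -/
structure N8 (G : Type u) [Group G] (y z : G) (K E : Subgroup G) : Prop where
  odd : Odd (orderOf y)
  real : IsConj y y⁻¹
  two : IsPGroup 2 K
  comm : ∀ q ∈ K, q * y = y * q
  card : Nat.card K = 8
  nonab : ∃ a ∈ K, ∃ b ∈ K, a * b ≠ b * a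
  max : ∀ R : Subgroup G, IsPGroup 2 R → (∀ r ∈ R, r * y = y * r) → K ≤ R → R = K
  zo : orderOf z = 2
  zK : ∀ q ∈ K, z * q = q * z
  zy : z * y = y * z
  Etwo : IsPGroup 2 E
  Enorm : ∀ c : G, c * z = z * c → ∀ q ∈ E, c * q * c⁻¹ ∈ E
  Ecent : ∀ c : G, (∀ q ∈ E, c * q = q * c) → c ∈ E

theorem N8.congr {G : Type u} {H : Type*} [Group G] [Group H] (e : G ≃* H) {y z : G} {K E : Subgroup G}
    (h : N8 G y z K E) : N8 H (e y) (e z) (K.map e.toMonoidHom) (E.map e.toMonoidHom) where
  odd := by rw [MulEquiv.orderOf_eq]; exact h.odd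
  real := by
    obtain ⟨g, hg⟩ := isConj_iff.1 h.real
    exact isConj_iff.2 ⟨e g, by rw [← map_inv, ← map_mul, ← map_mul, hg, map_inv]⟩
  two := h.two.map _
  comm := by
    rintro _ ⟨q, hq, rfl⟩
    show e q * e y = e y * e q
    rw [← map_mul, h.comm q hq, map_mul]
  card := by
    rw [← h.card]
    exact Nat.card_congr (K.equivMapOfInjective _ e.injective).symm.toEquiv
  nonab := by
    obtain ⟨a, ha, b, hb, hab⟩ := h.nonab
    refine ⟨e a, ⟨a, ha, rfl⟩, e b, ⟨b, hb, rfl⟩, fun h1 => hab (e.injective ?_)⟩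
    rw [map_mul, map_mul, h1]
  max := by
    intro R hR hc hK
    have h1 : R.comap e.toMonoidHom = K := by
      refine h.max _ (hR.comap_of_injective _ e.injective) ?_ ?_
      · intro r hr
        apply e.injective
        rw [map_mul, map_mul]
        exact hc _ hr
      · intro q hq
        exact hK ⟨q, hq, rfl⟩
    rw [← h1, map_comap_eq_self_of_surjective e.surjective]
  zo := by rw [MulEquiv.orderOf_eq]; exact h.zo
  zK := by
    rintro _ ⟨q, hq, rfl⟩
    show e z * e q = e q * e z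
    rw [← map_mul, h.zK q hq, map_mul]
  zy := by rw [← map_mul, h.zy, map_mul]
  Etwo := h.Etwo.map _
  Enorm := by
    rintro c hc _ ⟨q, hq, rfl⟩
    obtain ⟨d, rfl⟩ := e.surjective c
    refine ⟨d * q * d⁻¹, h.Enorm d (e.injective ?_) q hq, ?_⟩
    · rw [map_mul, map_mul, hc]
    · show e (d * q * d⁻¹) = e d * e q * (e d)⁻¹
      rw [map_mul, map_mul, map_inv]
  Ecent := by
    intro c hc
    obtain ⟨d, rfl⟩ := e.surjective c
    refine ⟨d, h.Ecent d fun q hq => e.injective ?_, rfl⟩
    rw [map_mul, map_mul]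
    exact hc _ ⟨q, hq, rfl⟩

/-- the Sylow 2-subgroup of `C(y)` -/
theorem N8.exists_sylow {G : Type u} [Group G] {y z : G} {K E : Subgroup G} (h : N8 G y z K E) :
    ∃ Q : Sylow 2 (centralizer ({y} : Set G)), Nat.card Q = 8 ∧ ¬ IsMulCommutative Q ∧
      ∀ q ∈ Q, Commute z (q : G) := by
  have hle : K ≤ centralizer ({y} : Set G) := fun q hq => mem_centralizer_singleton_iff.2 (h.comm q hq)
  refine ⟨⟨K.subgroupOf (centralizer ({y} : Set G)), h.two.comap_of_injective _ Subtype.val_injective, ?_⟩,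
    ?_, ?_, ?_⟩
  · intro R hR hK
    have h1 : R.map (centralizer ({y} : Set G)).subtype = K := by
      refine h.max _ (hR.map _) ?_ ?_
      · rintro _ ⟨r, -, rfl⟩
        exact mem_centralizer_singleton_iff.1 r.2
      · intro q hq
        exact ⟨⟨q, hle hq⟩, hK (mem_subgroupOf.2 hq), rfl⟩
    rw [← h1]
    ext r
    rw [mem_subgroupOf]
    exact ⟨fun hr => ⟨r, hr, rfl⟩, fun ⟨s, hs, e⟩ => by rwa [← Subtype.ext e]⟩
  · rw [← h.card]
    exact Nat.card_congr (subgroupOfEquivOfLe hle).toEquiv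
  · intro hc
    obtain ⟨a, ha, b, hb, hab⟩ := h.nonab
    apply hab
    have h1 := hc.is_comm.comm (⟨⟨a, hle ha⟩, mem_subgroupOf.2 ha⟩ : K.subgroupOf (centralizer ({y} : Set G)))
      ⟨⟨b, hle hb⟩, mem_subgroupOf.2 hb⟩
    exact congrArg (fun w : K.subgroupOf (centralizer ({y} : Set G)) => ((w : centralizer ({y} : Set G)) : G)) h1
  · intro q hq
    exact h.zK q (mem_subgroupOf.1 hq)

end Cfsg.Agent.H890.EB
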