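import Cfsg.Agent.H729.PairTh
import Cfsg.Agent.H890.EB.Constr

/-!
# The Thompson group: the data of the criterion (N8) (helper890)

`y = γ 6` of order 7 is real, the Sylow 2-subgroup of `C(y)` is `C_Q(y)`, of order 8 and nonabelian, `Q = O_2(C(a))`.
-/

set_option autoImplicit false
set_option maxRecDepth 100000

namespace Cfsg.Agent.H890.EB

open Subgroup Cfsg
open Cfsg.Agent.Th.Base Cfsg.Agent.Th.Word Cfsg.Agent.Th.RelWords Cfsg.Agent.Th.PermTab
  Cfsg.Agent.Th.KOracle Cfsg.Agent.Th.KPerm Cfsg.Agent.Th.NineAct Cfsg.Agent.Th.CStruct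
  Cfsg.Agent.Th.COracleDef Cfsg.Agent.Th.COracleSound
open Cfsg.Agent.KFacts.Th.Mask Cfsg.Agent.KFacts.Th.Struct
open Cfsg.Agent.CpAutTh.Data Cfsg.Agent.CpAutTh.Alt Cfsg.Agent.CpAutTh.Local
open Cfsg.Agent.H729.PairTh

universe u

/-- 2-elements of `S_9` have order dividing 8 -/
theorem pow_eight {σ : Equiv.Perm (Fin 9)} {k : ℕ} (h : σ ^ 2 ^ k = 1) : σ ^ 8 = 1 := by
  rw [← orderOf_dvd_iff_pow_eq_one, ← Equiv.Perm.lcm_cycleType, Multiset.lcm_dvd]
  intro n hn
  have h1 : n ∣ 2 ^ k := by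
    refine dvd_trans ?_ (orderOf_dvd_of_pow_eq_one h)
    rw [← Equiv.Perm.lcm_cycleType]
    exact Multiset.dvd_lcm hn
  obtain ⟨j, -, rfl⟩ := (Nat.dvd_prime_pow Nat.prime_two).1 h1
  have h2 : 2 ^ j ≤ 9 := by
    have h3 := Multiset.single_le_sum (fun _ _ => Nat.zero_le _) _ hn
    rw [Equiv.Perm.sum_cycleType] at h3
    exact h3.trans ((Finset.card_le_univ _).trans (by rw [Fintype.card_fin]))
  have h3 : j ≤ 3 := by
    by_contra hc
    have h4 : 2 ^ 4 ≤ 2 ^ j := Nat.pow_le_pow_right (by norm_num) (by omega)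
    omega
  exact pow_dvd_pow 2 h3

section

variable {G : Type u} [Group G] {γ : ℕ → G} (h : Ctx γ)
include h

/-- `C_Q(y)` in `C(y)` -/
def KK (γ : ℕ → G) : Subgroup (centralizer ({γ 6} : Set G)) := (Q0 γ).subgroupOf (centralizer ({γ 6} : Set G))

omit h in
theorem mem_KK {x : centralizer ({γ 6} : Set G)} : x ∈ KK γ ↔ (x : G) ∈ Q0 γ := mem_subgroupOf

omit h in
theorem X7_eq (γ : ℕ → G) : ev γ X7 = γ 6 := by
  show γ 6 * 1 = _
  rw [mul_one]

omit h in
theorem comm6 (x : centralizer ({γ 6} : Set G)) : (x : G) * ev γ X7 = ev γ X7 * x := by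
  rw [X7_eq]
  exact mem_centralizer_singleton_iff.1 x.2

theorem c0_comm (i : Fin 9) (hi : i = 0 ∨ i = 1) : cc γ i ∈ centralizer ({γ 6} : Set G) := by
  rw [mem_centralizer_singleton_iff]
  have h1 : (γ 6)⁻¹ * cc γ i * γ 6 = cc γ i := by
    apply h.cc_conj' (by simp)
    rcases hi with rfl | rfl <;> decide +kernel
  rw [mul_assoc, inv_mul_eq_iff_eq_mul] at h1
  exact h1

theorem a_comm : γ 1 ∈ centralizer ({γ 6} : Set G) := by
  rw [mem_centralizer_singleton_iff]
  exact (h.mem_C.1 (h.letter_mem (x := 6) (by simp))).symm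

theorem isPGroup_Q : IsPGroup 2 (Q0 γ) := IsPGroup.of_card (n := 9) (by rw [h.cardQ]; norm_num)

theorem isPGroup_KK : IsPGroup 2 (KK γ) := (isPGroup_Q h).comap_of_injective _ (Subtype.val_injective)

/-- the masks of the elements of `C_Q(y)` -/
theorem mask_KK {x : centralizer ({γ 6} : Set G)} (hx : x ∈ KK γ) : ∃ m ∈ F7, HM (γ 1) (cc γ) (x : G) m :=
  comm_mask h chk7 fix7 (mem_KK.1 hx) (comm6 x)

/-- the elements of `C_Q(y)` commuting with `c 0` and `c 1` -/
theorem center_KK {x : centralizer ({γ 6} : Set G)} (hx : x ∈ KK γ) (h0 : (x : G) * cc γ 0 = cc γ 0 * x)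
    (h1 : (x : G) * cc γ 1 = cc γ 1 * x) : (x : G) = 1 ∨ (x : G) = γ 1 := by
  obtain ⟨m, hm, hm2⟩ := mask_KK h hx
  have e0 : m.testBit 0 = false := by
    by_contra hc
    rw [Bool.not_eq_false] at hc
    exact not_both h.data (x : G) 0 h0 ((hm2.2 0).2 hc)
  have e1 : m.testBit 1 = false := by
    by_contra hc
    rw [Bool.not_eq_false] at hc
    exact not_both h.data (x : G) 1 h1 ((hm2.2 1).2 hc)
  have hm0 : m = 0 := by
    unfold F7 at hm
    rw [List.mem_cons, List.mem_cons, List.mem_cons, List.mem_singleton] at hm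
    rcases hm with rfl | rfl | rfl | rfl
    · rfl
    · exact absurd e0 (by decide)
    · exact absurd e0 (by decide)
    · exact absurd e1 (by decide)
  subst hm0
  exact eq_of_zero h.data h.cardQ (mem_KK.1 hx) hm2

theorem card_KK_le : Nat.card (KK γ) ≤ 8 := by
  classical
  have hfin := h.fin
  let l : List G := [1, γ 1, cc γ 0 * cc γ 1, cc γ 0 * cc γ 1 * γ 1, cc γ 1, cc γ 1 * γ 1, cc γ 0, cc γ 0 * γ 1]
  have hmem : ∀ x : KK γ, ((x : centralizer ({γ 6} : Set G)) : G) ∈ l.toFinset := by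
    intro x
    rw [List.mem_toFinset]
    obtain ⟨m, hm, hm2⟩ := mask_KK h x.2
    have hxQ := mem_KK.1 x.2
    have key : ∀ y ∈ Q0 γ, HM (γ 1) (cc γ) y m → y ∈ l → y * γ 1 ∈ l →
        ((x : centralizer ({γ 6} : Set G)) : G) ∈ l := by
      intro y hyQ hym h1 h2
      rcases eq_of_mask h.data h.cardQ hyQ hxQ hym hm2 with h3 | h3
      · rw [h3]; exact h1
      · rw [h3]; exact h2
    unfold F7 at hm
    rw [List.mem_cons, List.mem_cons, List.mem_cons, List.mem_singleton] at hm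
    rcases hm with rfl | rfl | rfl | rfl
    · refine key 1 (one_mem _) (mask_one h.data) (by simp [l]) (by simp [l])
    · refine key (cc γ 0 * cc γ 1) (mul_mem (h.cc_mem 0) (h.cc_mem 1)) ?_ (by simp [l]) (by simp [l])
      exact mul h.data (h.cc_mem 0) (mask_c h.data 0) (mask_c h.data 1)
    · exact key (cc γ 1) (h.cc_mem 1) (mask_c h.data 1) (by simp [l]) (by simp [l])
    · exact key (cc γ 0) (h.cc_mem 0) (mask_c h.data 0) (by simp [l]) (by simp [l])
  have h1 : Nat.card (KK γ) ≤ l.toFinset.card := by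
    let g : KK γ → l.toFinset := fun x => ⟨_, hmem x⟩
    have hg : Function.Injective g := fun x y hxy => Subtype.ext (Subtype.ext
      (congrArg (fun w : l.toFinset => (w : G)) hxy))
    have h2 := Nat.card_le_card_of_injective g hg
    rwa [Nat.card_eq_fintype_card (α := l.toFinset), Fintype.card_coe] at h2
  exact h1.trans (List.toFinset_card_le l)

theorem not_comm01 : cc γ 0 * cc γ 1 ≠ cc γ 1 * cc γ 0 := by
  intro hc
  exact not_both h.data (cc γ 0) 1 hc (h.data.com 0 1 (by decide))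

theorem not_comm_KK : ¬ IsMulCommutative (KK γ) := by
  intro hc
  apply not_comm01 h
  let x : KK γ := ⟨⟨cc γ 0, c0_comm h 0 (Or.inl rfl)⟩, h.cc_mem 0⟩
  let y : KK γ := ⟨⟨cc γ 1, c0_comm h 1 (Or.inr rfl)⟩, h.cc_mem 1⟩
  exact congrArg (fun z : KK γ => ((z : centralizer ({γ 6} : Set G)) : G)) (hc.is_comm.comm x y)

theorem card_KK : Nat.card (KK γ) = 8 := by
  have hfin := h.fin
  have : Fact (Nat.Prime 2) := ⟨Nat.prime_two⟩
  obtain ⟨n, hn⟩ := IsPGroup.iff_card.1 (isPGroup_KK h)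
  have h1 := card_KK_le h
  rw [hn] at h1 ⊢
  have h2 : n ≤ 3 := by
    by_contra hc
    have : 2 ^ 4 ≤ 2 ^ n := Nat.pow_le_pow_right (by norm_num) (by omega)
    omega
  have h3 : ¬ n ≤ 2 := by
    intro h3
    apply not_comm_KK h
    have h4 : Nat.card (KK γ) ∣ 2 ^ 2 := by rw [hn]; exact pow_dvd_pow 2 h3
    have h5 : n = 0 ∨ n = 1 ∨ n = 2 := by omega
    rcases h5 with rfl | rfl | rfl
    · have : Subsingleton (KK γ) := (Nat.card_eq_one_iff_unique.1 (by rw [hn]; norm_num)).1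
      exact ⟨⟨fun a b => Subsingleton.elim _ _⟩⟩
    · have : IsCyclic (KK γ) := isCyclic_of_prime_card (p := 2) (by rw [hn]; norm_num)
      exact ⟨⟨fun a b => (IsCyclic.commGroup (α := KK γ)).mul_comm a b⟩⟩
    · exact IsPGroup.isMulCommutative_of_card_eq_prime_sq (p := 2) hn
  rw [show n = 3 by omega]
  norm_num

/-- `C_Q(y)` is a Sylow 2-subgroup of `C(y)` -/
theorem max_KK {R : Subgroup (centralizer ({γ 6} : Set G))} (hR : IsPGroup 2 R) (hK : KK γ ≤ R) : R = KK γ := by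
  have hfin := h.fin
  have : Fact (Nat.Prime 2) := ⟨Nat.prime_two⟩
  by_contra hne
  have hlt : KK γ < R := lt_of_le_of_ne hK (Ne.symm hne)
  obtain ⟨f, F⟩ := exists_epi h
  -- the normalizer grows
  have hnil : Group.IsNilpotent R := hR.isNilpotent
  have h1 : (KK γ).subgroupOf R < ⊤ := by
    rw [lt_top_iff_ne_top]
    intro h2
    rw [subgroupOf_eq_top] at h2
    exact hne (le_antisymm h2 hK)
  have h2 := Group.normalizerCondition_of_isNilpotent (G := R) _ h1
  obtain ⟨r, hr1, hr2⟩ := SetLike.exists_of_lt h2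
  have hrK : (r : centralizer ({γ 6} : Set G)) ∉ KK γ := fun h3 => hr2 (mem_subgroupOf.2 h3)
  have hnorm : ∀ q ∈ KK γ, (r : centralizer ({γ 6} : Set G)) * q * (r : centralizer ({γ 6} : Set G))⁻¹ ∈ KK γ := by
    intro q hq
    have h3 := (mem_normalizer_iff.1 hr1 ⟨q, hK hq⟩).1 (mem_subgroupOf.2 hq)
    exact mem_subgroupOf.1 h3
  set r' : centralizer ({γ 6} : Set G) := r.1 with hr'
  -- `r` centralizes `a`
  let a' : centralizer ({γ 6} : Set G) := ⟨γ 1, a_comm h⟩
  have haK : a' ∈ KK γ := h.a_mem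
  have hac : ∀ q ∈ KK γ, a' * q = q * a' := fun q hq => Subtype.ext (h.Q_comm (mem_KK.1 hq))
  have hrinv : ∀ q ∈ KK γ, r'⁻¹ * q * r' ∈ KK γ := by
    intro q hq
    have h3 := (mem_normalizer_iff.1 hr1 ⟨r'⁻¹ * q * r', mul_mem (mul_mem (inv_mem r.2) (hK hq)) r.2⟩).2 (by
      rw [mem_subgroupOf]
      show r' * (r'⁻¹ * q * r') * r'⁻¹ ∈ KK γ
      rwa [show r' * (r'⁻¹ * q * r') * r'⁻¹ = q by group])
    exact mem_subgroupOf.1 h3
  have hra : ((r' * a' * r'⁻¹ : centralizer ({γ 6} : Set G)) : G) = γ 1 := by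
    have h3 : ∀ q ∈ KK γ, r' * a' * r'⁻¹ * q = q * (r' * a' * r'⁻¹) := by
      intro q hq
      have h4 := hac _ (hrinv q hq)
      calc r' * a' * r'⁻¹ * q = r' * (a' * (r'⁻¹ * q * r')) * r'⁻¹ := by group
        _ = r' * ((r'⁻¹ * q * r') * a') * r'⁻¹ := by rw [h4]
        _ = q * (r' * a' * r'⁻¹) := by group
    have h4 := center_KK h (hnorm a' haK)
      (congrArg Subtype.val (h3 ⟨cc γ 0, c0_comm h 0 (Or.inl rfl)⟩ (h.cc_mem 0)))
      (congrArg Subtype.val (h3 ⟨cc γ 1, c0_comm h 1 (Or.inr rfl)⟩ (h.cc_mem 1)))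
    refine h4.resolve_left fun h5 => h.a1 ?_
    have h6 : r' * a' * r'⁻¹ = 1 := Subtype.ext h5
    have h7 : a' = 1 := by
      rw [mul_inv_eq_one] at h6
      exact mul_left_cancel (h6.trans (mul_one r').symm)
    exact congrArg Subtype.val h7
  have hrC : (r' : G) ∈ sub γ isC := by
    rw [h.mem_C]
    have h3 : (r' : G) * γ 1 * (r' : G)⁻¹ = γ 1 := hra
    rw [mul_inv_eq_iff_eq_mul] at h3
    exact h3
  -- the image in `A9`
  have h6C : ev γ X7 ∈ sub γ isC := ev_mem_sub c7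
  have hf1 : f ⟨(r' : G), hrC⟩ = 1 := by
    apply Subtype.ext
    refine seven_two (σ := (f ⟨(r' : G), hrC⟩ : Equiv.Perm (Fin 9))) (τ := pm9 X7) ?_ ?_ t7 ?_
    · obtain ⟨k, hk⟩ := hR r
      have h4 : (⟨(r' : G), hrC⟩ : sub γ isC) ^ 2 ^ k = 1 := Subtype.ext (by
        have h5 := congrArg (fun z : R => ((z : centralizer ({γ 6} : Set G)) : G)) hk
        exact h5)
      have h5 := congrArg f h4
      rw [map_pow, map_one] at h5
      exact pow_eight (k := k) (congrArg Subtype.val h5)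
    · exact Equiv.Perm.mem_alternatingGroup.1 (f ⟨(r' : G), hrC⟩).2
    · rw [← F.word X7 c7]
      have h4 : (⟨(r' : G), hrC⟩ : sub γ isC) * ⟨ev γ X7, h6C⟩ = ⟨ev γ X7, h6C⟩ * ⟨(r' : G), hrC⟩ :=
        Subtype.ext (comm6 r')
      have h5 := congrArg f h4
      rw [map_mul, map_mul] at h5
      exact congrArg Subtype.val h5
  have h3 : (r' : G) ∈ Q0 γ := (mem_ker F).1 (MonoidHom.mem_ker.2 hf1)
  exact hrK h3

theorem order_six : orderOf (γ 6) = 7 := by
  obtain ⟨f, F⟩ := exists_epi h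
  have h1 := o7 h F
  rwa [Subgroup.orderOf_mk, X7_eq] at h1

theorem order_a : orderOf (γ 1) = 2 := by
  have : Fact (Nat.Prime 2) := ⟨Nat.prime_two⟩
  exact orderOf_eq_prime (by rw [pow_two]; exact h.aa) h.a1

/-- **the data of (N8) for the Thompson group** -/
theorem n8_ctx : N8 G (γ 6) (γ 1) (Q0 γ ⊓ centralizer ({γ 6} : Set G)) (Q0 γ) where
  odd := by rw [order_six h]; decide
  real := isConj_iff.2 ⟨γ 4 * γ 3, yx' h⟩
  two := (isPGroup_Q h).to_le inf_le_left
  comm q hq := mem_centralizer_singleton_iff.1 hq.2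
  card := by
    rw [← card_KK h]
    have h1 : KK γ = (Q0 γ ⊓ centralizer ({γ 6} : Set G)).subgroupOf (centralizer ({γ 6} : Set G)) := by
      rw [inf_subgroupOf_right]
      rfl
    rw [h1]
    exact Nat.card_congr (subgroupOfEquivOfLe inf_le_right).symm.toEquiv
  nonab := ⟨cc γ 0, ⟨h.cc_mem 0, c0_comm h 0 (Or.inl rfl)⟩, cc γ 1, ⟨h.cc_mem 1, c0_comm h 1 (Or.inr rfl)⟩,
    not_comm01 h⟩
  max R hR hc hK := by
    have hle : R ≤ centralizer ({γ 6} : Set G) := fun r hr => mem_centralizer_singleton_iff.2 (hc r hr)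
    have h1 : R.subgroupOf (centralizer ({γ 6} : Set G)) = KK γ := by
      refine max_KK h (hR.comap_of_injective _ Subtype.val_injective) ?_
      intro q hq
      exact mem_subgroupOf.2 (hK ⟨mem_KK.1 hq, q.2⟩)
    refine le_antisymm (fun r hr => ⟨?_, hle hr⟩) hK
    have h2 : (⟨r, hle hr⟩ : centralizer ({γ 6} : Set G)) ∈ R.subgroupOf (centralizer ({γ 6} : Set G)) :=
      mem_subgroupOf.2 hr
    rw [h1] at h2
    exact mem_KK.1 h2
  zo := order_a h
  zK q hq := h.Q_comm hq.1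
  zy := mem_centralizer_singleton_iff.1 (a_comm h)
  Etwo := isPGroup_Q h
  Enorm c hc q hq := by
    have h1 := h.Q_conj (inv_mem (h.mem_C.2 hc)) hq
    rwa [inv_inv] at h1
  Ecent c hc := by
    rcases h.eq_of_cent hc with rfl | rfl
    · exact one_mem _
    · exact h.a_mem

end

/-- **the data of (N8) for the Thompson group** -/
theorem n8_th {S : Type u} [Group S] (h : Spor.IsoTh S) : ∃ (y z : S) (K E : Subgroup S), N8 S y z K E := by
  obtain ⟨e⟩ := h
  exact ⟨_, _, _, _, (n8_ctx Cfsg.Agent.KFacts.Th.Main.ctx).congr e.symm⟩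

end Cfsg.Agent.H890.EB
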